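import Cfsg.Agent.H543.RM.Base
import Cfsg.Agent.H305.SepJ1

/-!
# S3849, P11: `J1` (helper543)
-/

set_option autoImplicit false

namespace Cfsg.Agent.H543.RM

open Subgroup Cfsg Cfsg.Agent.H571.DExt Cfsg.Agent.H305.SepJ1

universe u

variable {S : Type u} [Group S] [Finite S] [IsSimpleGroup S]

theorem cj1 : Nat.card Spor.J1 = 175560 := Cfsg.Agent.H305.SepJ1.card

omit [IsSimpleGroup S] in
/-- **J1, `{2,5}`** -/
theorem no2_j1_5 (h : Spor.IsoJ1 S) : ¬ Dom ({2, 5} : Set ℕ) S := by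
  obtain ⟨e⟩ := h
  exact nd_cn e (a := 3) (b := 2) (m := 4389) (n := 15) (by norm_num) (by norm_num) (by norm_num) cj1 (by norm_num)
    (by norm_num) (by norm_num) (fun _ hR => (cn5 hR).2) (by norm_num) (by norm_num) (by norm_num)

omit [IsSimpleGroup S] in
/-- **J1, `{2,7}`** -/
theorem no2_j1_7 (h : Spor.IsoJ1 S) : ¬ Dom ({2, 7} : Set ℕ) S := by
  obtain ⟨e⟩ := h
  exact nd_cn e (a := 3) (b := 1) (m := 3135) (n := 21) (by norm_num) (by norm_num) (by norm_num) cj1 (by norm_num)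
    (by norm_num) (by norm_num) (fun _ hR => (cn7 hR).2) (by norm_num) (by norm_num) (by norm_num)

omit [IsSimpleGroup S] in
/-- **J1, `{2,11}`** -/
theorem no2_j1_11 (h : Spor.IsoJ1 S) : ¬ Dom ({2, 11} : Set ℕ) S := by
  obtain ⟨e⟩ := h
  exact nd_cn e (a := 3) (b := 1) (m := 1995) (n := 55) (by norm_num) (by norm_num) (by norm_num) cj1 (by norm_num)
    (by norm_num) (by norm_num) (fun _ hR => (cn11 hR).2) (by norm_num) (by norm_num) (by norm_num)

omit [IsSimpleGroup S] in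
/-- **J1, `{2,19}`** -/
theorem no2_j1_19 (h : Spor.IsoJ1 S) : ¬ Dom ({2, 19} : Set ℕ) S := by
  obtain ⟨e⟩ := h
  exact nd_cn e (a := 3) (b := 1) (m := 1155) (n := 57) (by norm_num) (by norm_num) (by norm_num) cj1 (by norm_num)
    (by norm_num) (by norm_num) (fun _ hR => (cn19 hR).2) (by norm_num) (by norm_num) (by norm_num)

end Cfsg.Agent.H543.RM
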