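import Cfsg.Agent.H543.RM.Base
import Cfsg.Agent.H715.Fpr.MathData
import Cfsg.Agent.H171.Odd.Tools
import Cfsg.Agent.H868.SelfN23
import Cfsg.Agent.QTNorm.SporJ4

/-!
# S3849, P11: `M11`, `M23`, `M24` (helper543)
-/

set_option autoImplicit false

namespace Cfsg.Agent.H543.RM

open Subgroup Cfsg Cfsg.Agent.H571.DExt Cfsg.Agent.H715.Fpr.MathData

universe u

variable {S : Type u} [Group S] [Finite S] [IsSimpleGroup S]

theorem cm11 : Nat.card Spor.M11 = 7920 := by rw [card11]; rfl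
theorem cm23 : Nat.card Spor.M23 = 10200960 := by rw [card23]; rfl
theorem cm24 : Nat.card M24 = 244823040 := by rw [card24]; rfl

/-! ### `M11` -/

omit [IsSimpleGroup S] in
/-- **M11, `{2,5}`** -/
theorem no2_m11_5 (h : Spor.IsoM11 S) : ¬ Dom ({2, 5} : Set ℕ) S := by
  obtain ⟨e⟩ := h
  exact nd_cn e (a := 4) (b := 2) (m := 99) (n := 5) (by norm_num) (by norm_num) (by norm_num) cm11 (by norm_num)
    (by norm_num) (by norm_num) (fun _ hR => (cn11_5 hR).2) (by norm_num) (by norm_num) (by norm_num)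

omit [IsSimpleGroup S] in
/-- **M11, `{2,11}`** -/
theorem no2_m11_11 (h : Spor.IsoM11 S) : ¬ Dom ({2, 11} : Set ℕ) S := by
  obtain ⟨e⟩ := h
  exact nd_cn e (a := 4) (b := 0) (m := 45) (n := 55) (by norm_num) (by norm_num) (by norm_num) cm11 (by norm_num)
    (by norm_num) (by norm_num) (fun _ hR => (cn11_11 hR).2) (by norm_num) (by norm_num) (by norm_num)

/-! ### `M23` -/

omit [IsSimpleGroup S] in
/-- **M23, `{2,5}`** -/
theorem no2_m23_5 (h : Spor.IsoM23 S) : ¬ Dom ({2, 5} : Set ℕ) S := by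
  obtain ⟨e⟩ := h
  exact nd_cn e (a := 7) (b := 2) (m := 15939) (n := 15) (by norm_num) (by norm_num) (by norm_num) cm23 (by norm_num)
    (by norm_num) (by norm_num) (fun _ hR => (cn23_5 hR).2) (by norm_num) (by norm_num) (by norm_num)

omit [IsSimpleGroup S] in
/-- **M23, `{2,11}`** -/
theorem no2_m23_11 (h : Spor.IsoM23 S) : ¬ Dom ({2, 11} : Set ℕ) S := by
  obtain ⟨e⟩ := h
  exact nd_cn e (a := 7) (b := 0) (m := 7245) (n := 55) (by norm_num) (by norm_num) (by norm_num) cm23 (by norm_num)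
    (by norm_num) (by norm_num) (fun _ hR => (cn23_11 hR).2) (by norm_num) (by norm_num) (by norm_num)

omit [IsSimpleGroup S] in
/-- **M23, `{2,23}`** -/
theorem no2_m23_23 (h : Spor.IsoM23 S) : ¬ Dom ({2, 23} : Set ℕ) S := by
  obtain ⟨e⟩ := h
  exact nd_cn e (a := 7) (b := 0) (m := 3465) (n := 253) (by norm_num) (by norm_num) (by norm_num) cm23 (by norm_num)
    (by norm_num) (by norm_num) (fun _ hR => (cn23_23 hR).2) (by norm_num) (by norm_num) (by norm_num)

/-! ### `M24` -/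

omit [IsSimpleGroup S] in
/-- **M24, `{2,5}`** -/
theorem no2_m24_5 (h : Spor.IsoM24 S) : ¬ Dom ({2, 5} : Set ℕ) S := by
  obtain ⟨e⟩ := h
  exact nd_cn e (a := 10) (b := 4) (m := 47817) (n := 15) (by norm_num) (by norm_num) (by norm_num) cm24 (by norm_num)
    (by norm_num) (by norm_num) (fun _ hR => (cn24_5 hR).2) (by norm_num) (by norm_num) (by norm_num)

omit [IsSimpleGroup S] in
/-- **M24, `{2,11}`** -/
theorem no2_m24_11 (h : Spor.IsoM24 S) : ¬ Dom ({2, 11} : Set ℕ) S := by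
  obtain ⟨e⟩ := h
  exact nd_cn e (a := 10) (b := 1) (m := 21735) (n := 55) (by norm_num) (by norm_num) (by norm_num) cm24 (by norm_num)
    (by norm_num) (by norm_num) (fun _ hR => (cn24_11 hR).2) (by norm_num) (by norm_num) (by norm_num)

omit [IsSimpleGroup S] in
/-- **M24, `{2,23}`** -/
theorem no2_m24_23 (h : Spor.IsoM24 S) : ¬ Dom ({2, 23} : Set ℕ) S := by
  obtain ⟨e⟩ := h
  exact nd_cn e (a := 10) (b := 0) (m := 10395) (n := 253) (by norm_num) (by norm_num) (by norm_num) cm24 (by norm_num)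
    (by norm_num) (by norm_num) (fun _ hR => (cn24_23 hR).2) (by norm_num) (by norm_num) (by norm_num)

/-! ### `{2,7}` -/

open Cfsg.Agent.H555.RV Cfsg.Agent.H171.Odd Cfsg.Agent.H940.Eng.D in
/-- `|C(7)| = 7 c`, `|N(7)| = 3 |C(7)|` and self-normalising Sylow 2-subgroups -/
theorem seven {G : Type} [Group G] [Finite G] {a m c : ℕ} (hcard : Nat.card G = 2 ^ (a + 1) * 7 * m) (h2 : ¬ 2 ∣ m)
    (h7 : ¬ 7 ∣ m) (hcn : ∀ R : Subgroup G, Nat.card R = 7 → Nat.card (centralizer (R : Set G)) = c ∧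
      Nat.card (normalizer (R : Set G)) = c * 3) (hc : ¬ 2 ^ a ∣ c) (hs : Cfsg.Agent.QTNorm.SelfN G) :
    ¬ Dom ({2, 7} : Set ℕ) G := by
  have hcz : ∀ x : G, orderOf x = 7 → Nat.card (centralizer ({x} : Set G)) = c ∧
      Nat.card (normalizer ((zpowers x : Subgroup G) : Set G)) = c * 3 := by
    intro x hx
    have h1 := hcn (zpowers x) (by rw [Nat.card_zpowers, hx])
    rwa [Cfsg.Agent.H715.Fpr.cent_zpowers'] at h1
  refine no2_of_odd (p := 7) (a := a + 1) (m := m) (by norm_num) (by norm_num) hcard h2 h7 ?_ ?_ ?_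
  · refine inv1_of_cent (a := a) (b := 1) (w := 1) Nat.prime_two (by norm_num) (by rw [hcard, mul_assoc]; exact Dvd.intro _ rfl)
      ?_ (fun k h1 h2 => ?_) (fun y hy hd => ?_)
    · rw [hcard]
      intro hd
      have h3 : 7 * 7 ∣ 7 * (2 ^ (a + 1) * m) := by
        have e : 7 * (2 ^ (a + 1) * m) = 2 ^ (a + 1) * 7 * m := by ring
        rw [e]; exact hd
      have h4 : 7 ∣ 2 ^ (a + 1) * m := Nat.dvd_of_mul_dvd_mul_left (by norm_num) h3
      rcases (Nat.Prime.dvd_mul (by norm_num)).1 h4 with h5 | h5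
      · have := (Nat.prime_dvd_prime_iff_eq (by norm_num) Nat.prime_two).1 (Nat.Prime.dvd_of_dvd_pow (by norm_num) h5)
        omega
      · exact h7 h5
    · obtain rfl : k = 1 := by omega
      norm_num
    · rw [(hcz y hy).1] at hd
      exact hc hd
  · intro x hx
    obtain ⟨h1, h2⟩ := hcz x hx
    exact cent_of_odd (e := 3) (by norm_num) (by rw [h1, h2])
  · intro T hT hTi
    have hf : Fact (Nat.Prime 2) := ⟨Nat.prime_two⟩
    obtain ⟨P, hP⟩ := hT.exists_le_sylow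
    have h1 : T = (P : Subgroup G) := (hT.toSylow hTi).3 P.2 hP |>.symm
    rw [h1]
    exact hs P

omit [IsSimpleGroup S] in
/-- **M23, `{2,7}`** -/
theorem no2_m23_7 (h : Spor.IsoM23 S) : ¬ Dom ({2, 7} : Set ℕ) S := by
  obtain ⟨e⟩ := h
  have : Finite Spor.M23 := Finite.of_equiv S e.toEquiv
  intro hD
  exact seven (a := 6) (m := 11385) (c := 14) (by rw [cm23]; norm_num) (by norm_num) (by norm_num)
    (fun _ hR => cn23_7 hR) (by norm_num) Cfsg.Agent.H868.selfN_M23 (Cfsg.Agent.H555.RV.dom_equiv e hD)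

omit [IsSimpleGroup S] in
/-- **M24, `{2,7}`** -/
theorem no2_m24_7 (h : Spor.IsoM24 S) : ¬ Dom ({2, 7} : Set ℕ) S := by
  obtain ⟨e⟩ := h
  have : Finite M24 := Finite.of_equiv S e.toEquiv
  intro hD
  exact seven (a := 9) (m := 34155) (c := 42) (by rw [cm24]; norm_num) (by norm_num) (by norm_num)
    (fun _ hR => cn24_7 hR) (by norm_num) (Cfsg.Agent.QTNorm.selfN_m24 ⟨MulEquiv.refl _⟩)
    (Cfsg.Agent.H555.RV.dom_equiv e hD)

end Cfsg.Agent.H543.RM
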